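import Cfsg.Agent.H244.S3509.Facts_m3
import Cfsg.Agent.FastGrp
import Cfsg.Agent.Prune
set_option linter.all false

section
prune_inst 0x7ffefdfbebfcbbffdfff7ffff7ffeffdffb93fffe6fffdcbffe06fff5bff4b88cfe7fbef8bebd2fe5fffe21c54f87b53fffffefff26ffc7ffffdfff45ffbffdffdf7bd08719f9cb40fbc0fff03f0778e7f3fffffffffffffffffffffffffffbeffbfffffffff

-- part: H566/G2/Nf
section
prune_inst 0x10004140344000000800000000002004640000000000000028000a400341630080410140021010000080201078080000001000400020000000000800000200000000000000000000200006800080000000000000000000000000000000000000000000000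
set_option linter.all false
open scoped Cfsg.Agent.FastGrp

/-!
# S3509, the groups `G₂(q)`: transitivity on the hyperbolic pairs of nilpotent elements of a quaternion algebra (helper566)
-/

set_option autoImplicit false
set_option linter.unusedSimpArgs false
open Cfsg

namespace Cfsg.Agent.H566.G2

open Cfsg.Lie Cfsg.Agent.H161.Oct

variable {F : Type} [Field F]

theorem nm_zmul (x y : V F) : nm (zornMul x y) = nm x * nm y := by
  simp only [nm, mul0, mul1, mul2, mul3, mul4, mul5, mul6, mul7]; ring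

theorem tr_zmul (x y : V F) : tr (zornMul x y) = tr x * tr y - bl x y := by
  simp only [tr, bl, mul0, mul7]; ring

theorem zmul_flex (x y : V F) :
    zornMul (zornMul x y) x = tr (zornMul x y) • x - nm x • (tr y • o - y) := by
  apply ext8 <;> simp only [mul0, mul1, mul2, mul3, mul4, mul5, mul6, mul7, Pi.sub_apply,
    Pi.smul_apply, smul_eq_mul, o0, o1, o2, o3, o4, o5, o6, o7, tr, nm] <;> ring

theorem zmul_left (x y : V F) : zornMul x (zornMul x y) = zornMul (zornMul x x) y := by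
  apply ext8 <;> simp only [mul0, mul1, mul2, mul3, mul4, mul5, mul6, mul7] <;> ring

theorem zmul_right (x y : V F) : zornMul (zornMul x y) y = zornMul x (zornMul y y) := by
  apply ext8 <;> simp only [mul0, mul1, mul2, mul3, mul4, mul5, mul6, mul7] <;> ring

theorem zmul_flex' (x y : V F) : zornMul y (zornMul x y) = zornMul (zornMul y x) y := by
  apply ext8 <;> simp only [mul0, mul1, mul2, mul3, mul4, mul5, mul6, mul7] <;> ring

/-- a matrix of determinant one with first data -/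
theorem exists_sl3 {v w : Fin 3 → F} (h : v 0 * w 0 + v 1 * w 1 + v 2 * w 2 = 1) :
    ∃ D : Matrix (Fin 3) (Fin 3) F, D.det = 1 ∧ D.mulVec v = ![0, 0, 1] ∧
      ![0, 0, 1] = fun j => ∑ i, (D.adjugate i j) * w i := by
  -- the inverse matrix `[a, b, v]` with `a × b = w`
  obtain ⟨a, b, h0, h1, h2⟩ : ∃ a b : Fin 3 → F, a 1 * b 2 - a 2 * b 1 = w 0 ∧ a 2 * b 0 - a 0 * b 2 = w 1 ∧
      a 0 * b 1 - a 1 * b 0 = w 2 := by
    by_cases hw : w 0 = 0
    · by_cases hw1 : w 1 = 0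
      · have hw2 : w 2 ≠ 0 := by
          intro hw2
          rw [hw, hw1, hw2] at h
          simp at h
        exact ⟨![w 2, 0, 0], ![0, 1, 0], by simp [hw], by simp [hw1], by simp⟩
      · refine ⟨![0, - w 2 / w 1, 1], ![w 1, 0, 0], by simp [hw], by simp, ?_⟩
        simp
        field_simp
    · refine ⟨![- w 1, w 0, 0], ![- w 2 / w 0, 0, 1], by simp, by simp, ?_⟩
      simp
      field_simp
  let E : Matrix (Fin 3) (Fin 3) F := !![a 0, b 0, v 0; a 1, b 1, v 1; a 2, b 2, v 2]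
  have hE : E.det = 1 := by
    rw [Matrix.det_fin_three]
    simp [E]
    linear_combination h + v 0 * h0 + v 1 * h1 + v 2 * h2
  refine ⟨E.adjugate, ?_, ?_, ?_⟩
  · rw [Matrix.det_adjugate, hE, one_pow]
  · have h3 : E.mulVec ![0, 0, 1] = v := by
      funext i
      fin_cases i <;> simp [E, Matrix.mulVec, dotProduct, Fin.sum_univ_three]
    conv_lhs => rw [← h3]
    rw [Matrix.mulVec_mulVec, Matrix.adjugate_mul, hE, one_smul, Matrix.one_mulVec]
  · have h4 : E.adjugate.adjugate = E := by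
      rw [Matrix.adjugate_adjugate E (by simp), hE, one_pow, one_smul]
    rw [h4]
    funext j
    fin_cases j
    · simp [E, Fin.sum_univ_three]
      linear_combination a 0 * h0 + a 1 * h1 + a 2 * h2
    · simp [E, Fin.sum_univ_three]
      linear_combination b 0 * h0 + b 1 * h1 + b 2 * h2
    · simp [E, Fin.sum_univ_three]
      linear_combination -h

/-- **Transitivity** -/
theorem exists_nf {n n' : V F} (htn : tr n = 0) (htn' : tr n' = 0) (hn : nm n = 0) (hn' : nm n' = 0)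
    (hb : bl n n' = -1) : ∃ h ∈ AutO F, h n = iA ![0, 0, 1] ∧ h n' = iB ![0, 0, 1] := by
  have ht : tr (zornMul n n') = 1 := by rw [tr_zmul, htn, htn', hb]; ring
  obtain ⟨h1, hh1, he⟩ := exists_idem ht (by rw [nm_zmul, hn, zero_mul])
  have hs : zornMul n n = 0 := by rw [sq_eq, htn, hn, zero_smul, zero_smul, sub_zero]
  have hs' : zornMul n' n' = 0 := by rw [sq_eq, htn', hn', zero_smul, zero_smul, sub_zero]
  have z0 : ∀ x : V F, zornMul 0 x = 0 := fun x => by
    apply ext8 <;> simp [mul0, mul1, mul2, mul3, mul4, mul5, mul6, mul7]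
  have z0' : ∀ x : V F, zornMul x 0 = 0 := fun x => by
    apply ext8 <;> simp [mul0, mul1, mul2, mul3, mul4, mul5, mul6, mul7]
  -- the image of `n`
  have a1 : zornMul e1 (h1 n) = h1 n := by
    rw [← he, ← mem_AutO.1 hh1, zmul_flex, ht, hn, one_smul, zero_smul, sub_zero]
  have a2 : zornMul (h1 n) e1 = 0 := by
    rw [← he, ← mem_AutO.1 hh1, zmul_left, hs, z0, map_zero]
  have b1 : zornMul e1 (h1 n') = 0 := by
    rw [← he, ← mem_AutO.1 hh1, zmul_right, hs', z0', map_zero]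
  have b2 : zornMul (h1 n') e1 = h1 n' := by
    have h3 : tr (zornMul n' n) = 1 := by rw [tr_zmul, htn, htn', bl_comm, hb]; ring
    rw [← he, ← mem_AutO.1 hh1, zmul_flex', zmul_flex, h3, hn', one_smul, zero_smul, sub_zero]
  have A : h1 n = iA ![h1 n 1, h1 n 2, h1 n 3] := by
    rw [e1_mul] at a1
    rw [mul_e1] at a2
    rw [iA_apply]
    apply ext8
    · exact congrFun a2 0
    · rfl
    · rfl
    · rfl
    · exact (congrFun a1 4).symm
    · exact (congrFun a1 5).symm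
    · exact (congrFun a1 6).symm
    · exact (congrFun a1 7).symm
  have B : h1 n' = iB ![h1 n' 4, h1 n' 5, h1 n' 6] := by
    rw [e1_mul] at b1
    rw [mul_e1] at b2
    rw [iB_apply]
    apply ext8
    · exact congrFun b1 0
    · exact congrFun b1 1
    · exact congrFun b1 2
    · exact congrFun b1 3
    · rfl
    · rfl
    · rfl
    · exact (congrFun b2 7).symm
  have C : h1 n 1 * h1 n' 4 + h1 n 2 * h1 n' 5 + h1 n 3 * h1 n' 6 = 1 := by
    have h4 := map_bl hh1 n n'
    rw [hb, A, B, iA_apply, iB_apply] at h4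
    simp [bl] at h4
    linear_combination -h4
  obtain ⟨D, hD, d1, d2⟩ := exists_sl3 (v := ![h1 n 1, h1 n 2, h1 n 3]) (w := ![h1 n' 4, h1 n' 5, h1 n' 6]) C
  refine ⟨sl D hD * h1, (AutO F).mul_mem (sl_mem D hD) hh1, ?_, ?_⟩
  · rw [LinearEquiv.mul_apply, sl_apply, A, ← d1]
    apply ext8
    all_goals
      simp [slF0, slF1, slF2, slF3, slF4, slF5, slF6, slF7, iA_apply, Matrix.mulVec, dotProduct, Fin.sum_univ_three]
  · rw [LinearEquiv.mul_apply, sl_apply, B, d2]
    rw [Matrix.adjugate_fin_three]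
    apply ext8
    all_goals
      simp only [slF0, slF1, slF2, slF3, slF4, slF5, slF6, slF7, iB_apply, Fin.sum_univ_three, Matrix.of_apply,
        Matrix.cons_val', Matrix.cons_val_zero, Matrix.cons_val_one, Matrix.cons_val]
    all_goals ring

end Cfsg.Agent.H566.G2
end

-- part: H566/G2/Elt
section
set_option linter.all false
open scoped Cfsg.Agent.FastGrp

/-!
# S3509, the groups `G₂(q)`: explicit elements centralising `diag(A', 1)` (helper566)
-/

set_option autoImplicit false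
set_option linter.unusedSimpArgs false
open Cfsg

namespace Cfsg.Agent.H566.G2

open Cfsg.Lie Cfsg.Agent.H161.Oct

variable {F : Type} [Field F]

/-- upper element -/
def Pt (t : F) : AutO F := ⟨tau ![0, 0, t], tau_mem _⟩

/-- lower element -/
def Qt (t : F) : AutO F := ⟨swp F * tau ![0, 0, t] * (swp F)⁻¹,
  (AutO F).mul_mem ((AutO F).mul_mem swp_mem (tau_mem _)) ((AutO F).inv_mem swp_mem)⟩

/-- the map of `Pt` -/
def pF (t : F) (x : V F) : V F :=
  ![x 0 + t * x 6, x 1, x 2, x 3 + (x 7 - x 0) * t - t * x 6 * t, x 4 + t * x 2, x 5 - t * x 1, x 6,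
      x 7 - t * x 6]

/-- the map of `Qt` -/
def qF (t : F) (x : V F) : V F :=
  ![x 0 + t * x 3, x 1 + t * x 5, x 2 - t * x 4, x 3, x 4, x 5, x 6 + (x 7 - x 0) * t - t * x 3 * t,
      x 7 - t * x 3]

theorem Pt_apply (t : F) (x : V F) : (Pt t : V F ≃ₗ[F] V F) x = pF t x := by
  change tauF ![0, 0, t] x = _
  apply ext8
  all_goals
    simp only [pF, tau0, tau1, tau2, tau3, tau4, tau5, tau6, tau7, Matrix.cons_val_zero, Matrix.cons_val_one,
      Matrix.cons_val]
  all_goals ring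

theorem Qt_apply (t : F) (x : V F) : (Qt t : V F ≃ₗ[F] V F) x = qF t x := by
  change swpF (tauF ![0, 0, t] (swpF x)) = _
  apply ext8
  all_goals
    simp only [qF, tau0, tau1, tau2, tau3, tau4, tau5, tau6, tau7, swpF0, swpF1, swpF2, swpF3, swpF4, swpF5, swpF6, swpF7,
      Matrix.cons_val_zero, Matrix.cons_val_one, Matrix.cons_val]
  all_goals ring

/-- block matrix -/
def bM (a b c d : F) : Matrix (Fin 3) (Fin 3) F := !![a, b, 0; c, d, 0; 0, 0, 1]

theorem det_bM (a b c d : F) : (bM a b c d).det = a * d - b * c := by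
  simp [bM, Matrix.det_fin_three]

/-- the map of a block -/
def bF (a b c d : F) (x : V F) : V F :=
  ![x 0, a * x 1 + b * x 2, c * x 1 + d * x 2, x 3, d * x 4 - c * x 5, a * x 5 - b * x 4, x 6, x 7]

/-- block automorphism -/
noncomputable def Bl (a b c d : F) (h : a * d - b * c = 1) : AutO F :=
  ⟨sl (bM a b c d) (by rw [det_bM, h]), sl_mem _ _⟩

theorem Bl_apply {a b c d : F} (h : a * d - b * c = 1) (x : V F) : (Bl a b c d h : V F ≃ₗ[F] V F) x = bF a b c d x := by
  change slF (bM a b c d) x = _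
  apply ext8
  all_goals
    simp only [bF, bM, slF0, slF1, slF2, slF3, slF4, slF5, slF6, slF7, Matrix.of_apply, Matrix.cons_val',
      Matrix.cons_val_zero, Matrix.cons_val_one, Matrix.cons_val]
  all_goals (try ring)
  all_goals linear_combination (x 6) * h

theorem mul_ap (g h : AutO F) (x : V F) : ((g * h : AutO F) : V F ≃ₗ[F] V F) x =
    (g : V F ≃ₗ[F] V F) ((h : V F ≃ₗ[F] V F) x) := rfl

theorem ext_ap {g h : AutO F} (H : ∀ x, (g : V F ≃ₗ[F] V F) x = (h : V F ≃ₗ[F] V F) x) : g = h :=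
  Subtype.ext (LinearEquiv.ext H)

theorem Bl_Pt {a b c d : F} (h : a * d - b * c = 1) (t : F) : Bl a b c d h * Pt t = Pt t * Bl a b c d h := by
  apply ext_ap
  intro x
  rw [mul_ap, mul_ap, Bl_apply, Bl_apply, Pt_apply, Pt_apply]
  apply ext8
  all_goals
    simp only [bF, pF, Matrix.cons_val_zero, Matrix.cons_val_one, Matrix.cons_val]
  all_goals ring

theorem Bl_Qt {a b c d : F} (h : a * d - b * c = 1) (t : F) : Bl a b c d h * Qt t = Qt t * Bl a b c d h := by
  apply ext_ap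
  intro x
  rw [mul_ap, mul_ap, Bl_apply, Bl_apply, Qt_apply, Qt_apply]
  apply ext8
  all_goals
    simp only [bF, qF, Matrix.cons_val_zero, Matrix.cons_val_one, Matrix.cons_val]
  all_goals ring

theorem Pt_add (s t : F) : Pt s * Pt t = Pt (s + t) := by
  apply ext_ap
  intro x
  rw [mul_ap, Pt_apply, Pt_apply, Pt_apply]
  apply ext8
  all_goals
    simp only [pF, Matrix.cons_val_zero, Matrix.cons_val_one, Matrix.cons_val]
  all_goals ring

theorem Pt_zero : Pt (0 : F) = 1 := by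
  apply ext_ap
  intro x
  rw [Pt_apply]
  change _ = x
  apply ext8
  all_goals
    simp only [pF, Matrix.cons_val_zero, Matrix.cons_val_one, Matrix.cons_val]
  all_goals ring

theorem Pt_pow (t : F) (n : ℕ) : Pt t ^ n = Pt ((n : F) * t) := by
  induction n with
  | zero => rw [pow_zero, Nat.cast_zero, zero_mul, Pt_zero]
  | succ n ih => rw [pow_succ, ih, Pt_add, Nat.cast_succ]; congr 1; ring

/-- the element of the Weyl group -/
def Wt (t : F) : AutO F := Pt t * Qt t⁻¹ * Pt t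

/-- the involution -/
noncomputable def zz (F : Type) [Field F] : AutO F := Bl (-1) 0 0 (-1) (by ring)

theorem zz_apply (x : V F) : (zz F : V F ≃ₗ[F] V F) x = ![x 0, -x 1, -x 2, x 3, -x 4, -x 5, x 6, x 7] := by
  rw [zz, Bl_apply]
  apply ext8
  all_goals
    simp only [bF, Matrix.cons_val_zero, Matrix.cons_val_one, Matrix.cons_val]
  all_goals ring

/-- the map of `Wt` -/
theorem Wt_apply {t : F} (ht : t ≠ 0) (x : V F) : (Wt t : V F ≃ₗ[F] V F) x =
    ![x 7, t⁻¹ * x 5, -(t⁻¹ * x 4), -(t ^ 2 * x 6), t * x 2, -(t * x 1), -(t⁻¹ ^ 2 * x 3), x 0] := by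
  rw [Wt, mul_ap, mul_ap, Pt_apply, Qt_apply, Pt_apply]
  apply ext8
  all_goals
    simp only [pF, qF, Matrix.cons_val_zero, Matrix.cons_val_one, Matrix.cons_val]
  all_goals field_simp
  all_goals ring

theorem Wt_sq {t : F} (ht : t ≠ 0) : Wt t * Wt t = zz F := by
  apply ext_ap
  intro x
  rw [mul_ap, Wt_apply ht, Wt_apply ht, zz_apply]
  apply ext8
  all_goals
    simp only [Matrix.cons_val_zero, Matrix.cons_val_one, Matrix.cons_val]
  all_goals field_simp

theorem Wt_conj {t : F} (ht : t ≠ 0) : Wt t * Pt t = Qt t⁻¹ * Wt t := by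
  apply ext_ap
  intro x
  rw [mul_ap, mul_ap, Wt_apply ht, Wt_apply ht, Pt_apply, Qt_apply]
  apply ext8
  all_goals
    simp only [pF, qF, Matrix.cons_val_zero, Matrix.cons_val_one, Matrix.cons_val]
  all_goals field_simp
  all_goals ring

end Cfsg.Agent.H566.G2

private theorem dce_55a8a99144c7 : _root_.True := by
  try have : _root_.True := by simp only [_root_.Cfsg.Agent.H566.G2.bF.eq_1]
  try have : _root_.True := by simp only [_root_.Cfsg.Agent.H566.G2.zz.eq_1]
  try have : _root_.True := by simp only [_root_.Cfsg.Agent.H566.G2.qF.eq_1]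
  try have : _root_.True := by simp only [_root_.Cfsg.Agent.H566.G2.pF.eq_1]
  try have : _root_.True := by simp only [_root_.Cfsg.Agent.H566.G2.bM.eq_1]
  try have : _root_.True := by simp only [_root_.Cfsg.Agent.H566.G2.Wt.eq_1]
  exact _root_.True.intro
end

-- part: H566/G2/Core
section
set_option linter.all false
open scoped Cfsg.Agent.FastGrp

/-!
# S3509, the groups `G₂(q)`: the mixed case in coordinates (helper566)
-/

set_option autoImplicit false
set_option linter.unusedSimpArgs false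
open Cfsg

namespace Cfsg.Agent.H566.G2

open Cfsg.Lie Cfsg.Agent.H161.Oct

variable {F : Type} [Field F]

/-- `E₁₂` -/
def n0 (F : Type) [Field F] : V F := iA ![0, 0, 1]
/-- `E₂₁` -/
def n1 (F : Type) [Field F] : V F := iB ![0, 0, 1]

theorem n0_eq : n0 F = ![0, 0, 0, 1, 0, 0, 0, 0] := rfl
theorem n1_eq : n1 F = ![0, 0, 0, 0, 0, 0, 1, 0] := rfl

theorem n0_mul_n1 : zornMul (n0 F) (n1 F) = e1 := by
  rw [n0_eq, n1_eq]
  apply ext8 <;> simp [mul0, mul1, mul2, mul3, mul4, mul5, mul6, mul7, e1]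

theorem e1_mul_n0 : zornMul e1 (n0 F) = n0 F := by
  rw [n0_eq, e1_mul]
  apply ext8 <;> simp

theorem n0_mul_e1 : zornMul (n0 F) e1 = 0 := by
  rw [n0_eq, mul_e1]
  apply ext8 <;> simp

/-- an automorphism fixing `e1`, `E₁₂` and mapping `E₂₁` into the block algebra -/
theorem exists_Bl {g : AutO F} (h1 : (g : V F ≃ₗ[F] V F) e1 = e1) (h0 : (g : V F ≃ₗ[F] V F) (n0 F) = n0 F)
    (h4 : (g : V F ≃ₗ[F] V F) (n1 F) 4 = 0) (h5 : (g : V F ≃ₗ[F] V F) (n1 F) 5 = 0) :
    ∃ (a b c d : F) (h : a * d - b * c = 1), g = Bl a b c d h := by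
  obtain ⟨P, hP, hg⟩ := exists_sl g.2 h1
  have e0 := h0
  rw [hg, sl_apply, n0_eq] at e0
  have p02 : P 0 2 = 0 := by
    have := congrFun e0 1
    simpa [slF1] using this
  have p12 : P 1 2 = 0 := by
    have := congrFun e0 2
    simpa [slF2] using this
  have p22 : P 2 2 = 1 := by
    have := congrFun e0 3
    simpa [slF3] using this
  have q4 : P 1 0 * P 2 1 - P 1 1 * P 2 0 = 0 := by
    rw [hg, sl_apply, n1_eq] at h4
    simpa [slF4] using h4
  have q5 : P 2 0 * P 0 1 - P 2 1 * P 0 0 = 0 := by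
    rw [hg, sl_apply, n1_eq] at h5
    simpa [slF5] using h5
  have hd : P 0 0 * P 1 1 - P 0 1 * P 1 0 = 1 := by
    rw [Matrix.det_fin_three, p02, p12, p22] at hP
    linear_combination hP
  have p20 : P 2 0 = 0 := by
    linear_combination (-(P 2 0)) * hd - P 0 0 * q4 - P 1 0 * q5
  have p21 : P 2 1 = 0 := by
    linear_combination (-(P 2 1)) * hd - P 0 1 * q4 - P 1 1 * q5
  refine ⟨P 0 0, P 0 1, P 1 0, P 1 1, hd, ?_⟩
  apply Subtype.ext
  rw [hg]
  apply LinearEquiv.ext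
  intro x
  have hPb : P = bM (P 0 0) (P 0 1) (P 1 0) (P 1 1) := by
    ext i j
    fin_cases i <;> fin_cases j <;> simp [bM, p02, p12, p22, p20, p21]
  rw [sl_apply]
  change _ = slF (bM (P 0 0) (P 0 1) (P 1 0) (P 1 1)) x
  rw [← hPb]

theorem Bl_n1 {a b c d : F} (h : a * d - b * c = 1) : (Bl a b c d h : V F ≃ₗ[F] V F) (n1 F) = n1 F := by
  rw [Bl_apply, n1_eq]
  apply ext8 <;> simp [bF]

theorem Bl_e1 {a b c d : F} (h : a * d - b * c = 1) : (Bl a b c d h : V F ≃ₗ[F] V F) e1 = e1 := by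
  rw [Bl_apply]
  apply ext8 <;> simp [bF, e1]

/-- `u` in coordinates -/
theorem exists_u {a b c d : F} (h : a * d - b * c = 1)
    (hfix : ∀ v, (Bl a b c d h : V F ≃ₗ[F] V F) v = v → v 1 = 0 ∧ v 2 = 0 ∧ v 4 = 0 ∧ v 5 = 0)
    {u : AutO F} (hu : Bl a b c d h * u = u * Bl a b c d h) (hn : (u : V F ≃ₗ[F] V F) (n0 F) = n0 F) :
    ∃ (t : F) (a' b' c' d' : F) (h' : a' * d' - b' * c' = 1), u = Pt t * Bl a' b' c' d' h' := by
  have hst : ∀ v, (Bl a b c d h : V F ≃ₗ[F] V F) v = v →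
      (Bl a b c d h : V F ≃ₗ[F] V F) ((u : V F ≃ₗ[F] V F) v) = (u : V F ≃ₗ[F] V F) v := by
    intro v hv
    rw [← mul_ap, hu, mul_ap, hv]
  set f := (u : V F ≃ₗ[F] V F) e1 with hf
  obtain ⟨f1, f2, f4, f5⟩ := hfix _ (hst e1 (Bl_e1 h))
  rw [← hf] at f1 f2 f4 f5
  have m1 : zornMul f (n0 F) = n0 F := by
    conv_lhs => rw [hf, ← hn]
    rw [← mem_AutO.1 u.2, e1_mul_n0, hn]
  have m2 : zornMul (n0 F) f = 0 := by
    conv_lhs => rw [hf, ← hn]
    rw [← mem_AutO.1 u.2, n0_mul_e1, map_zero]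
  have f0 : f 0 = 1 := by
    have := congrFun m1 3
    rw [n0_eq, mul3] at this
    simpa using this
  have f6 : f 6 = 0 := by
    have := congrFun m1 7
    rw [n0_eq, mul7] at this
    simpa using this
  have f7 : f 7 = 0 := by
    have := congrFun m2 3
    rw [n0_eq, mul3] at this
    simpa using this
  have hfe : f = (Pt (-f 3) : V F ≃ₗ[F] V F) e1 := by
    rw [Pt_apply]
    apply ext8 <;> simp [pF, e1, f0, f1, f2, f4, f5, f6, f7]
  have hPP : Pt (-f 3) * (Pt (f 3) * u) = u := by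
    rw [← mul_assoc, Pt_add, neg_add_cancel, Pt_zero, one_mul]
  have hPn : ∀ t : F, (Pt t : V F ≃ₗ[F] V F) (n0 F) = n0 F := by
    intro t
    rw [Pt_apply, n0_eq]
    apply ext8 <;> simp [pF]
  have hcom : Bl a b c d h * (Pt (f 3) * u) = (Pt (f 3) * u) * Bl a b c d h := by
    rw [← mul_assoc, Bl_Pt, mul_assoc, hu, mul_assoc]
  have g1 : ((Pt (f 3) * u : AutO F) : V F ≃ₗ[F] V F) e1 = e1 := by
    rw [mul_ap, ← hf, hfe, ← mul_ap, Pt_add]
    have hz : (Pt (-f 3) : V F ≃ₗ[F] V F) e1 3 = f 3 := by rw [← hfe]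
    rw [hz, add_neg_cancel, Pt_zero]
    rfl
  have g0 : ((Pt (f 3) * u : AutO F) : V F ≃ₗ[F] V F) (n0 F) = n0 F := by
    rw [mul_ap, hn, hPn]
  have g45 := hfix (((Pt (f 3) * u : AutO F) : V F ≃ₗ[F] V F) (n1 F)) (by
    rw [← mul_ap, hcom, mul_ap, Bl_n1])
  obtain ⟨a', b', c', d', h', hg⟩ := exists_Bl g1 g0 g45.2.2.1 g45.2.2.2
  exact ⟨-f 3, a', b', c', d', h', by rw [← hg, hPP]⟩

end Cfsg.Agent.H566.G2
end

-- part: H566/G2/CoreZ
section
prune_inst 0x102001400440020008000080010020046c00009000204001c8000a4003006300000001410090100000822a106008000000000050000000000000080000000000000040060200a10426000e800084000000000000000000000000000000000000000000000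
set_option linter.all false
open scoped Cfsg.Agent.FastGrp

/-!
# S3509, the groups `G₂(q)`: the involution is in the normal closure (helper566)
-/

set_option autoImplicit false
set_option linter.unusedSimpArgs false
open Cfsg

namespace Cfsg.Agent.H566.G2

open Cfsg.Lie Cfsg.Agent.H161.Oct

variable {F : Type} [Field F]

/-- an element with `a ^ 12 = 1`, `a ^ p = 1` -/
theorem pow_six {H : Type*} [Group H] {a : H} {p : ℕ} (hp : p.Prime) (hp2 : p ≠ 2) (h12 : a ^ 12 = 1) (hap : a ^ p = 1) :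
    a ^ 6 = 1 := by
  by_cases h3 : p = 3
  · subst h3
    rw [show (6 : ℕ) = 3 * 2 by norm_num, pow_mul, hap, one_pow]
  · have hc : Nat.Coprime 12 p := by
      rw [show (12 : ℕ) = 2 * 2 * 3 by norm_num]
      refine Nat.Coprime.mul_left (Nat.Coprime.mul_left ?_ ?_) ?_
      · exact (Nat.coprime_primes Nat.prime_two hp).2 (Ne.symm hp2)
      · exact (Nat.coprime_primes Nat.prime_two hp).2 (Ne.symm hp2)
      · exact (Nat.coprime_primes Nat.prime_three hp).2 (Ne.symm h3)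
    have h1 : orderOf a ∣ Nat.gcd 12 p := Nat.dvd_gcd (orderOf_dvd_of_pow_eq_one h12) (orderOf_dvd_of_pow_eq_one hap)
    rw [hc, Nat.dvd_one, orderOf_eq_one_iff] at h1
    rw [h1, one_pow]

theorem Bl_Wt {a b c d : F} (h : a * d - b * c = 1) (t : F) : Bl a b c d h * Wt t = Wt t * Bl a b c d h := by
  unfold Wt
  rw [← mul_assoc, ← mul_assoc, Bl_Pt, mul_assoc (Pt t), Bl_Qt, mul_assoc (Pt t * Qt t⁻¹), ← Bl_Pt]
  simp only [mul_assoc]

/-- the involution is in the normal closure -/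
theorem zz_mem {p : ℕ} [CharP F p] (hp : p.Prime) (hp2 : p ≠ 2) {a b c d : F} (h : a * d - b * c = 1) {t : F} (ht : t ≠ 0)
    {a' b' c' d' : F} (h' : a' * d' - b' * c' = 1) {N : Subgroup (AutO F)}
    (hN : ∀ g, g * Bl a b c d h = Bl a b c d h * g → ∀ n ∈ N, g * n * g⁻¹ ∈ N) (hu : Pt t * Bl a' b' c' d' h' ∈ N) :
    zz F ∈ N := by
  set s := Bl a b c d h with hs
  set ℓ := Bl a' b' c' d' h' with hℓ
  let C : Subgroup (AutO F) := Subgroup.centralizer {s}
  have memC : ∀ g : AutO F, g * s = s * g → g ∈ C := by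
    intro g hg
    rw [Subgroup.mem_centralizer_singleton_iff]
    exact hg
  have hP : Pt t ∈ C := memC _ (Bl_Pt h t).symm
  have hQ : Qt t⁻¹ ∈ C := memC _ (Bl_Qt h _).symm
  have hW : Wt t ∈ C := memC _ (Bl_Wt h t).symm
  let N' : Subgroup C := N.subgroupOf C
  have hN' : N'.Normal := by
    constructor
    intro n hn g
    rw [Subgroup.mem_subgroupOf] at hn ⊢
    refine hN g ?_ _ hn
    have := g.2
    rw [Subgroup.mem_centralizer_singleton_iff] at this
    exact this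
  let q : C →* C ⧸ N' := QuotientGroup.mk' N'
  have hq : ∀ g : C, (g : AutO F) ∈ N → q g = 1 := by
    intro g hg
    rw [QuotientGroup.mk'_apply, QuotientGroup.eq_one_iff, Subgroup.mem_subgroupOf]
    exact hg
  have hq' : ∀ g : C, q g = 1 → (g : AutO F) ∈ N := by
    intro g hg
    rw [QuotientGroup.mk'_apply, QuotientGroup.eq_one_iff, Subgroup.mem_subgroupOf] at hg
    exact hg
  -- `a (w a⁻¹ w⁻¹) ∈ N`
  have k1 : Pt t * (Wt t * (Pt t)⁻¹ * (Wt t)⁻¹) ∈ N := by
    have e1 : Wt t * ℓ = ℓ * Wt t := (Bl_Wt h' t).symm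
    have e2 : Pt t * ℓ = ℓ * Pt t := (Bl_Pt h' t).symm
    have e3 : Wt t * (Pt t * ℓ)⁻¹ * (Wt t)⁻¹ ∈ N := hN _ (Bl_Wt h t).symm _ (N.inv_mem hu)
    have e4 : Pt t * (Wt t * (Pt t)⁻¹ * (Wt t)⁻¹) = (Pt t * ℓ) * (Wt t * (Pt t * ℓ)⁻¹ * (Wt t)⁻¹) := by
      have e5 : Wt t * ℓ⁻¹ = ℓ⁻¹ * Wt t := by
        rw [eq_inv_mul_iff_mul_eq, ← mul_assoc, ← e1, mul_assoc, mul_inv_cancel, mul_one]
      rw [mul_inv_rev, ← mul_assoc (Wt t), e5]
      simp only [mul_assoc, mul_inv_cancel_left]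
    rw [e4]
    exact N.mul_mem hu e3
  have k2 : Wt t * (Pt t)⁻¹ * (Wt t)⁻¹ = (Qt t⁻¹)⁻¹ := by
    have := Wt_conj ht
    rw [← inv_inj, inv_inv, mul_inv_rev, mul_inv_rev, inv_inv, inv_inv, ← mul_assoc, this, mul_assoc, mul_inv_cancel,
      mul_one]
  rw [k2] at k1
  set α := q ⟨Pt t, hP⟩ with hα
  have k3 : q ⟨Qt t⁻¹, hQ⟩ = α := by
    have h1 : q (⟨Pt t, hP⟩ * (⟨Qt t⁻¹, hQ⟩ : C)⁻¹) = 1 := hq _ k1
    rw [map_mul, map_inv, mul_inv_eq_one] at h1
    exact h1.symm
  have k4 : q ⟨Wt t, hW⟩ = α ^ 3 := by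
    have h1 : (⟨Wt t, hW⟩ : C) = ⟨Pt t, hP⟩ * ⟨Qt t⁻¹, hQ⟩ * ⟨Pt t, hP⟩ := rfl
    rw [h1, map_mul, map_mul, k3, pow_succ, pow_two]
  have hzC : zz F ∈ C := by rw [← Wt_sq ht]; exact C.mul_mem hW hW
  have k5 : q ⟨zz F, hzC⟩ = α ^ 6 := by
    have h1 : (⟨zz F, hzC⟩ : C) = ⟨Wt t, hW⟩ * ⟨Wt t, hW⟩ := Subtype.ext (Wt_sq ht).symm
    rw [h1, map_mul, k4, ← pow_add]
  have hz2 : zz F * zz F = 1 := by
    apply ext_ap
    intro x
    rw [mul_ap, zz_apply, zz_apply]
    change _ = x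
    apply ext8 <;> simp
  have k6 : α ^ 12 = 1 := by
    have h1 : q (⟨zz F, hzC⟩ * ⟨zz F, hzC⟩) = 1 := hq _ (by
      change zz F * zz F ∈ N
      rw [hz2]; exact N.one_mem)
    rw [map_mul, k5, ← pow_add] at h1
    exact h1
  have k7 : α ^ p = 1 := by
    rw [hα, ← map_pow]
    apply hq
    change Pt t ^ p ∈ N
    rw [Pt_pow, CharP.cast_eq_zero, zero_mul, Pt_zero]
    exact N.one_mem
  have k8 := pow_six hp hp2 k6 k7
  exact hq' ⟨zz F, hzC⟩ (by rw [k5, k8])

theorem zz_sq : (zz F) ^ 2 = 1 := by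
  rw [pow_two]
  apply ext_ap
  intro x
  rw [mul_ap, zz_apply, zz_apply]
  change _ = x
  apply ext8 <;> simp

theorem zz_ne (h2 : (2 : F) ≠ 0) : zz F ≠ 1 := by
  intro h
  have h1 := congrArg (fun g : AutO F => (g : V F ≃ₗ[F] V F) (Pi.single 1 1) 1) h
  simp only [zz_apply] at h1
  have h3 : (1 : AutO F) = 1 := rfl
  have h4 : (((1 : AutO F) : V F ≃ₗ[F] V F) (Pi.single 1 1)) 1 = (1 : F) := by
    change (Pi.single 1 1 : V F) 1 = 1
    simp
  rw [h4] at h1
  simp at h1
  apply h2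
  linear_combination -h1

theorem Bl_eq_one {a b c d : F} (h : a * d - b * c = 1) (hb : b = 0) (hc : c = 0) (ha : a = 1) (hd : d = 1) :
    Bl a b c d h = 1 := by
  apply ext_ap
  intro x
  rw [Bl_apply]
  change _ = x
  subst hb; subst hc; subst ha; subst hd
  apply ext8 <;> simp [bF]

/-- the involution is unique -/
theorem zz_unique (h2 : (2 : F) ≠ 0) {t : AutO F} (ht : t ^ 2 = 1) (ht1 : t ≠ 1)
    (hf : ∀ v : V F, v 1 = 0 → v 2 = 0 → v 4 = 0 → v 5 = 0 → (t : V F ≃ₗ[F] V F) v = v) : t = zz F := by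
  have f1 : (t : V F ≃ₗ[F] V F) e1 = e1 := hf _ rfl rfl rfl rfl
  have f0 : (t : V F ≃ₗ[F] V F) (n0 F) = n0 F := hf _ rfl rfl rfl rfl
  have f2 : (t : V F ≃ₗ[F] V F) (n1 F) = n1 F := hf _ rfl rfl rfl rfl
  obtain ⟨a, b, c, d, h, rfl⟩ := exists_Bl f1 f0 (by rw [f2]; rfl) (by rw [f2]; rfl)
  have sq : ∀ x : V F, bF a b c d (bF a b c d x) = x := by
    intro x
    have h1 := congrArg (fun g : AutO F => (g : V F ≃ₗ[F] V F) x) ht
    simp only [pow_two, mul_ap, Bl_apply] at h1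
    exact h1
  have s1 := sq (Pi.single 1 1)
  have s2 := sq (Pi.single 2 1)
  have a1 := congrFun s1 1
  have a2 := congrFun s1 2
  have b1 := congrFun s2 1
  have b2 := congrFun s2 2
  simp [bF] at a1 a2 b1 b2
  have t1 : a * (a + d) = 2 := by linear_combination a1 + h
  have t0 : a + d ≠ 0 := by
    intro h0
    rw [h0, mul_zero] at t1
    exact h2 t1.symm
  have hb : b = 0 := by
    have : b * (a + d) = 0 := by linear_combination b1
    exact (mul_eq_zero.1 this).resolve_right t0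
  have hc : c = 0 := by
    have : c * (a + d) = 0 := by linear_combination a2
    exact (mul_eq_zero.1 this).resolve_right t0
  have hda : d = a := by
    have h3 : a * d = 1 := by rw [hb] at h; linear_combination h
    have h4 : a * a = 1 := by rw [hb] at a1; linear_combination a1
    have ha0 : a ≠ 0 := by rintro rfl; simp at h4
    exact mul_left_cancel₀ ha0 (by rw [h3, h4])
  have h4 : (a - 1) * (a + 1) = 0 := by rw [hb] at a1; linear_combination a1
  rcases mul_eq_zero.1 h4 with h5 | h5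
  · exfalso
    apply ht1
    have ha : a = 1 := sub_eq_zero.1 h5
    exact Bl_eq_one h hb hc ha (by rw [hda, ha])
  · have ha : a = -1 := eq_neg_of_add_eq_zero_left h5
    unfold zz
    subst hb; subst hc; subst hda; subst ha
    rfl

end Cfsg.Agent.H566.G2

private theorem dce_1ee72f546fea : _root_.True := by
  try have : _root_.True := by simp only [_root_.Cfsg.Agent.H566.G2.Bl.congr_simp]
  exact _root_.True.intro
end

-- part: H566/G2/Mixed
section
prune_inst 0x200000000000000000000000000000000000000000000000000000000000008001000000000000000008000000000000100010002000000000000000000000000010060000a100000000000000000000000000000000000000000000000000000000000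
set_option linter.all false
open scoped Cfsg.Agent.FastGrp

/-!
# S3509, the groups `G₂(q)`: (C), the mixed case (helper566)
-/

set_option autoImplicit false
set_option linter.unusedSimpArgs false
open Cfsg

namespace Cfsg.Agent.H566.G2

open Cfsg.Lie Cfsg.Agent.H161.Oct

variable {F : Type} [Field F]

theorem pow_ap_of_sq {s : V F ≃ₗ[F] V F} {v : V F} (h : s (s v - v) = s v - v) (n : ℕ) :
    (s ^ n) v = v + (n : F) • (s v - v) := by
  induction n with
  | zero => simp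
  | succ n ih =>
    rw [pow_succ', LinearEquiv.mul_apply, ih, map_add, map_smul, h, Nat.cast_succ, add_smul, one_smul]
    abel

theorem eq_of_sq {s : V F ≃ₗ[F] V F} {m : ℕ} (hm : (m : F) ≠ 0) (hsm : s ^ m = 1) {v : V F}
    (h : s (s v - v) = s v - v) : s v = v := by
  have h1 := pow_ap_of_sq h m
  rw [hsm] at h1
  have h2 : (m : F) • (s v - v) = 0 := by
    have h3 : (1 : V F ≃ₗ[F] V F) v = v := rfl
    rw [h3] at h1
    exact (add_eq_left.1 h1.symm)
  exact sub_eq_zero.1 ((smul_eq_zero.1 h2).resolve_left hm)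

/-- the fixed space of a block automorphism of order prime to the characteristic -/
theorem Bl_fix {a b c d : F} (h : a * d - b * c = 1) (h1 : Bl a b c d h ≠ 1) {m : ℕ} (hm : (m : F) ≠ 0)
    (hsm : Bl a b c d h ^ m = 1) (v : V F) (hv : (Bl a b c d h : V F ≃ₗ[F] V F) v = v) :
    v 1 = 0 ∧ v 2 = 0 ∧ v 4 = 0 ∧ v 5 = 0 := by
  have key : a + d ≠ 2 := by
    intro h2
    apply h1
    apply ext_ap
    intro x
    change _ = x
    have hsm' : (Bl a b c d h : V F ≃ₗ[F] V F) ^ m = 1 := by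
      rw [← Subgroup.coe_pow, hsm]; rfl
    refine eq_of_sq hm hsm' ?_
    rw [map_sub]
    simp only [Bl_apply]
    apply ext8
    all_goals
      simp only [bF, Pi.sub_apply, Matrix.cons_val_zero, Matrix.cons_val_one, Matrix.cons_val]
    · linear_combination (a * x 1 + b * x 2) * h2 - x 1 * h
    · linear_combination (c * x 1 + d * x 2) * h2 - x 2 * h
    · linear_combination (d * x 4 - c * x 5) * h2 - x 4 * h
    · linear_combination (a * x 5 - b * x 4) * h2 - x 5 * h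
  have k0 : (a - 1) * (d - 1) - b * c ≠ 0 := by
    intro h2
    apply key
    linear_combination h - h2
  rw [Bl_apply] at hv
  have e1 : a * v 1 + b * v 2 = v 1 := congrFun hv 1
  have e2 : c * v 1 + d * v 2 = v 2 := congrFun hv 2
  have e4 : d * v 4 - c * v 5 = v 4 := congrFun hv 4
  have e5 : a * v 5 - b * v 4 = v 5 := congrFun hv 5
  refine ⟨?_, ?_, ?_, ?_⟩
  · refine (mul_eq_zero.1 (?_ : ((a - 1) * (d - 1) - b * c) * v 1 = 0)).resolve_left k0
    linear_combination (d - 1) * e1 - b * e2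
  · refine (mul_eq_zero.1 (?_ : ((a - 1) * (d - 1) - b * c) * v 2 = 0)).resolve_left k0
    linear_combination (a - 1) * e2 - c * e1
  · refine (mul_eq_zero.1 (?_ : ((a - 1) * (d - 1) - b * c) * v 4 = 0)).resolve_left k0
    linear_combination (a - 1) * e4 + c * e5
  · refine (mul_eq_zero.1 (?_ : ((a - 1) * (d - 1) - b * c) * v 5 = 0)).resolve_left k0
    linear_combination (d - 1) * e5 + b * e4

/-! ### characteristic two -/

/-- representation of functionals -/
theorem exists_bl (ψ : V F →ₗ[F] F) : ∃ z : V F, ∀ x, ψ x = bl z x := by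
  have hinj : Function.Injective (blL F) := by
    rw [injective_iff_map_eq_zero]
    intro x hx
    exact eq_zero_of_bl (fun y => by rw [← blL_apply, hx]; rfl)
  have hsur : Function.Surjective (blL F) :=
    (LinearMap.injective_iff_surjective_of_finrank_eq_finrank (Subspace.dual_finrank_eq (K := F) (V := V F)).symm).1 hinj
  obtain ⟨z, hz⟩ := hsur ψ
  exact ⟨z, fun x => by rw [← hz]; rfl⟩

theorem avg_comm {s u : V F ≃ₗ[F] V F} (h : s * u = u * s) (m : ℕ) (x : V F) : u (avg s m x) = avg s m (u x) := by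
  have hc : ∀ i : ℕ, s ^ i * u = u * s ^ i := fun i => (show Commute s u from h).pow_left i
  rw [avg, avg, map_sum]
  refine Finset.sum_congr rfl (fun i _ => ?_)
  have := LinearEquiv.congr_fun (hc i) x
  rw [LinearEquiv.mul_apply, LinearEquiv.mul_apply] at this
  exact this.symm

theorem bl_inv {g : V F ≃ₗ[F] V F} (hg : g ∈ AutO F) (x y : V F) : bl x (g y) = bl (g⁻¹ x) y := by
  have h := map_bl hg (g⁻¹ x) y
  have h2 : g (g⁻¹ x) = x := g.apply_symm_apply x
  rw [h2] at h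
  exact h

theorem bl_avg_adj {s : V F ≃ₗ[F] V F} (hs : s ∈ AutO F) (m : ℕ) (x y : V F) :
    bl x (avg s m y) = bl (avg s⁻¹ m x) y := by
  rw [avg, avg, ← blL_apply, ← blL_apply, map_sum, map_sum, LinearMap.sum_apply]
  refine Finset.sum_congr rfl (fun i _ => ?_)
  rw [blL_apply, blL_apply, bl_inv ((AutO F).pow_mem hs i), inv_pow]

theorem avg_linear (s : V F ≃ₗ[F] V F) (m : ℕ) : ∃ A : V F →ₗ[F] V F, ∀ x, A x = avg s m x := by
  refine ⟨∑ i ∈ Finset.range m, ((s ^ i : V F ≃ₗ[F] V F) : V F →ₗ[F] V F), fun x => ?_⟩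
  rw [LinearMap.sum_apply]
  rfl

/-- characteristic two -/
theorem mixed_two [CharP F 2] {s u : V F ≃ₗ[F] V F} (hs : s ∈ AutO F) (hu : u ∈ AutO F) {m : ℕ} (hm : (m : F) ≠ 0)
    (hsm : s ^ m = 1) (hsu : s * u = u * s) :
    ∃ e : V F, s e = e ∧ dsc e ≠ 0 ∧ ∃ a b : F, u e = a • o + b • e := by
  have h2 : (2 : F) = 0 := CharTwo.two_eq_zero
  have h4 : (4 : F) = 0 := by rw [show (4 : F) = 2 * 2 by norm_num, h2, zero_mul]
  by_cases hy : ∃ y : V F, s y = y ∧ u y = y ∧ tr y ≠ 0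
  · obtain ⟨y, h1, h3, h5⟩ := hy
    refine ⟨y, h1, ?_, 0, 1, by rw [h3, zero_smul, one_smul, zero_add]⟩
    unfold dsc
    rw [h4, zero_mul, sub_zero]
    exact pow_ne_zero 2 h5
  · push Not at hy
    obtain ⟨A, hA⟩ := avg_linear s m
    let C : V F →ₗ[F] V F := ((u : V F →ₗ[F] V F) - LinearMap.id) ∘ₗ A
    have hC : ∀ x, C x = u (avg s m x) - avg s m x := by
      intro x
      change u (A x) - A x = _
      rw [hA]
    have hker : trL F ∈ (LinearMap.ker C).dualAnnihilator := by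
      rw [Submodule.mem_dualAnnihilator]
      intro x hx
      rw [LinearMap.mem_ker, hC, sub_eq_zero] at hx
      have h3 := hy (avg s m x) (avg_fixed hsm x) hx
      rw [tr_avg hs] at h3
      exact (mul_eq_zero.1 h3).resolve_left hm
    rw [← LinearMap.range_dualMap_eq_dualAnnihilator_ker] at hker
    obtain ⟨ψ, hψ⟩ := hker
    obtain ⟨z2, hz2⟩ := exists_bl ψ
    set z := avg s⁻¹ m z2 with hz
    have hsz : s z = z := by
      have h3 : s⁻¹ z = z := avg_fixed (by rw [inv_pow, hsm, inv_one]) z2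
      have h5 : s (s⁻¹ z) = z := s.apply_symm_apply z
      rwa [h3] at h5
    have key : ∀ y, bl o y = bl (u⁻¹ z - z) y := by
      intro y
      have h3 : trL F y = ψ (C y) := by rw [← hψ]; rfl
      rw [trL_apply, hz2, hC, avg_comm hsu, show avg s m (u y) - avg s m y = avg s m (u y - y) by
        rw [← hA, ← hA, ← hA, map_sub]] at h3
      rw [bl_avg_adj hs, ← hz] at h3
      rw [bl_comm, bl_o, h3, sub_eq_add_neg, bl_add, sub_eq_add_neg, bl_add', bl_inv hu]
      congr 1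
      rw [← neg_one_smul F y, bl_smul, ← neg_one_smul F z, bl_smul']
    have hoz : u⁻¹ z - z = o := by
      have h3 : (u⁻¹ z - z) - o = 0 := by
        apply eq_zero_of_bl
        intro y
        rw [sub_eq_add_neg, bl_add', ← key y, ← neg_one_smul F o, bl_smul']
        ring
      exact sub_eq_zero.1 h3
    have huz : u z = z - o := by
      have h3 : u⁻¹ z = z + o := by rw [← hoz]; abel
      have h5 : u (u⁻¹ z) = z := u.apply_symm_apply z
      rw [h3, map_add, map_o hu] at h5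
      exact eq_sub_of_add_eq h5
    have htr : tr z = 1 := by
      have h3 := map_nm hu z
      rw [huz, sub_eq_add_neg, nm_add, ← neg_one_smul F o, nm_smul, bl_smul, bl_o, nm_o] at h3
      linear_combination -h3
    refine ⟨z, hsz, ?_, -1, 1, by rw [huz, neg_one_smul, one_smul]; abel⟩
    unfold dsc
    rw [htr, h4]
    simp

/-! ### odd characteristic -/

/-- a common fixed vector -/
theorem exists_fixed_two {p : ℕ} [CharP F p] (hp : p.Prime) {s u : V F ≃ₗ[F] V F} (hu : u ∈ AutO F) (hup : u ^ p = 1)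
    (hsu : s * u = u * s) {b : V F} (hb : b ≠ 0) (hsb : s b = b) (htb : tr b = 0) :
    ∃ n : V F, n ≠ 0 ∧ s n = n ∧ u n = n ∧ tr n = 0 := by
  classical
  have : Fact p.Prime := ⟨hp⟩
  have : CharP (Module.End F (V F)) p := charP_of_injective_algebraMap (FaithfulSMul.algebraMap_injective F _) p
  let D : Module.End F (V F) := (u : V F →ₗ[F] V F) - 1
  have hDa : ∀ x, D x = u x - x := fun x => rfl
  have hDp : D ^ p = 0 := by
    have h1 : D ^ p = (u : V F →ₗ[F] V F) ^ p - 1 ^ p := sub_pow_char_of_commute p (Commute.one_right _)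
    rw [h1, one_pow]
    have h2 : (u : V F →ₗ[F] V F) ^ p = 1 := by
      have h3 := congrArg (LinearEquiv.automorphismGroup.toLinearMapMonoidHom (R := F) (M := V F)) hup
      rw [map_pow, map_one] at h3
      exact h3
    rw [h2, sub_self]
  have hex : ∃ k, (D ^ k) b = 0 := ⟨p, by rw [hDp]; rfl⟩
  obtain ⟨k, hk⟩ : ∃ k, Nat.find hex = k + 1 := by
    refine Nat.exists_eq_succ_of_ne_zero (fun h0 => ?_)
    have h1 := Nat.find_spec hex
    rw [h0] at h1
    exact hb h1
  have h1 := Nat.find_spec hex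
  have h2 : (D ^ k) b ≠ 0 := fun h => absurd (Nat.find_min' hex h) (by omega)
  rw [hk] at h1
  have hcs : ∀ x, s (D x) = D (s x) := by
    intro x
    rw [hDa, hDa, map_sub]
    congr 1
    exact LinearEquiv.congr_fun hsu x
  have hs : ∀ j : ℕ, s ((D ^ j) b) = (D ^ j) b := by
    intro j
    induction j with
    | zero => exact hsb
    | succ j ih => rw [pow_succ', Module.End.mul_apply, hcs, ih]
  have ht : ∀ j : ℕ, tr ((D ^ j) b) = 0 := by
    intro j
    induction j with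
    | zero => exact htb
    | succ j ih =>
      rw [pow_succ', Module.End.mul_apply, hDa, ← trL_apply, map_sub, trL_apply, trL_apply, map_tr hu, sub_self]
  refine ⟨(D ^ k) b, h2, hs k, ?_, ht k⟩
  rw [pow_succ', Module.End.mul_apply, hDa, sub_eq_zero] at h1
  exact h1

/-- the second nilpotent element -/
theorem exists_partner (h2 : (2 : F) ≠ 0) {s : V F ≃ₗ[F] V F} (hs : s ∈ AutO F) {m : ℕ} (hm : (m : F) ≠ 0)
    (hsm : s ^ m = 1) {n : V F} (hn0 : n ≠ 0) (hsn : s n = n) (htn : tr n = 0) (hn : nm n = 0) :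
    ∃ n' : V F, s n' = n' ∧ tr n' = 0 ∧ nm n' = 0 ∧ bl n n' = -1 := by
  obtain ⟨w, hw⟩ : ∃ w, bl n w ≠ 0 := by
    by_contra hcon
    push Not at hcon
    exact hn0 (eq_zero_of_bl hcon)
  set w1 := avg s m w with hw1
  have f1 : s w1 = w1 := avg_fixed hsm _
  have f3 : bl n w1 ≠ 0 := by
    rw [hw1, bl_avg hs hsn]
    exact mul_ne_zero hm hw
  set w2 := w1 + (-(tr w1 / 2)) • o with hw2
  have g1 : s w2 = w2 := by rw [hw2, map_add, map_smul, f1, map_o hs]
  have g2 : tr w2 = 0 := by rw [hw2, tr_add, tr_smul, tr_o]; field_simp; ring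
  have g3 : bl n w2 = bl n w1 := by rw [hw2, bl_add, bl_smul, bl_o, htn]; ring
  set w3 := (-(bl n w1)⁻¹) • w2 with hw3
  have k1 : s w3 = w3 := by rw [hw3, map_smul, g1]
  have k2 : tr w3 = 0 := by rw [hw3, tr_smul, g2, mul_zero]
  have k3 : bl n w3 = -1 := by
    rw [hw3, bl_smul, g3, neg_mul, inv_mul_cancel₀ f3]
  clear_value w3
  refine ⟨w3 + nm w3 • n, by rw [map_add, map_smul, k1, hsn], by rw [tr_add, tr_smul, k2, htn]; ring, ?_, ?_⟩
  · rw [nm_add, nm_smul, hn, bl_smul, bl_comm w3 n, k3]; ring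
  · have h5 : bl n n = 0 := by
      have h6 := nm_add n n
      have h7 : nm (n + n) = 2 ^ 2 * nm n := by rw [← two_smul F n, nm_smul]
      rw [h7, hn] at h6
      linear_combination -h6
    rw [bl_add, bl_smul, k3, h5]; ring

theorem zz_Bl {a b c d : F} (h : a * d - b * c = 1) : Bl a b c d h * zz F = zz F * Bl a b c d h := by
  apply ext_ap
  intro x
  rw [mul_ap, mul_ap, Bl_apply, Bl_apply, zz_apply, zz_apply]
  apply ext8
  all_goals
    simp only [bF, Matrix.cons_val_zero, Matrix.cons_val_one, Matrix.cons_val]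
  all_goals ring

theorem zz_Pt (t : F) : Pt t * zz F = zz F * Pt t := (Bl_Pt _ t).symm

theorem inv_ap (g : AutO F) (x : V F) : (g : V F ≃ₗ[F] V F) (((g⁻¹ : AutO F) : V F ≃ₗ[F] V F) x) = x :=
  (g : V F ≃ₗ[F] V F).apply_symm_apply x

theorem inv_ap' (g : AutO F) (x : V F) : ((g⁻¹ : AutO F) : V F ≃ₗ[F] V F) ((g : V F ≃ₗ[F] V F) x) = x :=
  (g : V F ≃ₗ[F] V F).symm_apply_apply x

theorem dsc_map (g : AutO F) (x : V F) : dsc ((g : V F ≃ₗ[F] V F) x) = dsc x := by
  unfold dsc; rw [map_tr g.2, map_nm g.2]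

/-- odd characteristic -/
theorem mixed_odd {p : ℕ} [CharP F p] (hp : p.Prime) (hp2 : p ≠ 2) (h2 : (2 : F) ≠ 0) {s u : AutO F} (hs1 : s ≠ 1)
    (hdet : LinearMap.det ((s : V F ≃ₗ[F] V F) : V F →ₗ[F] V F) = 1) {m : ℕ} (hm : (m : F) ≠ 0) (hsm : s ^ m = 1)
    (hup : u ^ p = 1) (hsu : s * u = u * s)
    (hno : ¬ ∃ e : V F, (s : V F ≃ₗ[F] V F) e = e ∧ dsc e ≠ 0 ∧ PK e u) :
    ∃ z : AutO F, z ^ 2 = 1 ∧ z ≠ 1 ∧ s * z = z * s ∧ u * z = z * u ∧
      (∀ t : AutO F, t ^ 2 = 1 → t ≠ 1 → (∀ v, (s : V F ≃ₗ[F] V F) v = v → (t : V F ≃ₗ[F] V F) v = v) → t = z) ∧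
      ∀ N : Subgroup (AutO F), (∀ c, c * s = s * c → ∀ n ∈ N, c * n * c⁻¹ ∈ N) → u ∈ N → z ∈ N := by
  have hsm' : (s : V F ≃ₗ[F] V F) ^ m = 1 := by rw [← Subgroup.coe_pow, hsm]; rfl
  have hup' : (u : V F ≃ₗ[F] V F) ^ p = 1 := by rw [← Subgroup.coe_pow, hup]; rfl
  have hsu' : (s : V F ≃ₗ[F] V F) * (u : V F ≃ₗ[F] V F) = (u : V F ≃ₗ[F] V F) * (s : V F ≃ₗ[F] V F) :=
    congrArg Subtype.val hsu
  obtain ⟨e0, he0, hd0⟩ := exists_e' s.2 hdet hm hsm'
  set b : V F := e0 + (-(tr e0 / 2)) • o with hb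
  have tb : tr b = 0 := by rw [hb, tr_add, tr_smul, tr_o]; field_simp; ring
  have sb : (s : V F ≃ₗ[F] V F) b = b := by rw [hb, map_add, map_smul, he0, map_o s.2]
  have b0 : b ≠ 0 := by
    intro h
    apply hd0
    have h3 : dsc b = dsc e0 := by rw [hb, add_comm, dsc_add_o]
    rw [← h3, h]
    simp [dsc, tr, nm]
  obtain ⟨n, hn0, hsn, hun, htn⟩ := exists_fixed_two hp u.2 hup' hsu' b0 sb tb
  have hnn : nm n = 0 := by
    by_contra hne
    apply hno
    refine ⟨n, hsn, ?_, 0, 1, by rw [hun, zero_smul, one_smul, zero_add]⟩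
    unfold dsc
    rw [htn]
    intro h
    have h5 : (2 : F) * (2 * nm n) = 0 := by linear_combination -h
    rcases mul_eq_zero.1 h5 with h6 | h6
    · exact h2 h6
    · rcases mul_eq_zero.1 h6 with h7 | h7
      · exact h2 h7
      · exact hne h7
  obtain ⟨n', hsn', htn', hnn', hbn⟩ := exists_partner h2 s.2 hm hsm' hn0 hsn htn hnn
  obtain ⟨h0, hh0, hhn, hhn'⟩ := exists_nf htn htn' hnn hnn' hbn
  set h : AutO F := ⟨h0, hh0⟩ with hh
  have hin : ((h⁻¹ : AutO F) : V F ≃ₗ[F] V F) (n0 F) = n := by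
    have h3 : (h : V F ≃ₗ[F] V F) n = n0 F := hhn
    rw [← h3, inv_ap']
  have hin' : ((h⁻¹ : AutO F) : V F ≃ₗ[F] V F) (n1 F) = n' := by
    have h3 : (h : V F ≃ₗ[F] V F) n' = n1 F := hhn'
    rw [← h3, inv_ap']
  have cj : ∀ (g : AutO F) (x : V F), ((h * g * h⁻¹ : AutO F) : V F ≃ₗ[F] V F) x =
      (h : V F ≃ₗ[F] V F) ((g : V F ≃ₗ[F] V F) (((h⁻¹ : AutO F) : V F ≃ₗ[F] V F) x)) := fun g x => rfl
  have s0 : ((h * s * h⁻¹ : AutO F) : V F ≃ₗ[F] V F) (n0 F) = n0 F := by rw [cj, hin, hsn]; exact hhn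
  have s4 : ((h * s * h⁻¹ : AutO F) : V F ≃ₗ[F] V F) (n1 F) = n1 F := by rw [cj, hin', hsn']; exact hhn'
  have u0 : ((h * u * h⁻¹ : AutO F) : V F ≃ₗ[F] V F) (n0 F) = n0 F := by rw [cj, hin, hun]; exact hhn
  have s1 : ((h * s * h⁻¹ : AutO F) : V F ≃ₗ[F] V F) e1 = e1 := by
    rw [← n0_mul_n1, mem_AutO.1 (h * s * h⁻¹ : AutO F).2, s0, s4]
  obtain ⟨a, b', c, d, hdt, hsB⟩ := exists_Bl s1 s0 (by rw [s4]; rfl) (by rw [s4]; rfl)
  have hB1 : Bl a b' c d hdt ≠ 1 := by
    rw [← hsB]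
    intro h3
    apply hs1
    rw [mul_inv_eq_one] at h3
    exact mul_left_cancel (by rw [h3, mul_one])
  have hBm : Bl a b' c d hdt ^ m = 1 := by rw [← hsB, conj_pow, hsm, mul_one, mul_inv_cancel]
  have hcu : Bl a b' c d hdt * (h * u * h⁻¹) = (h * u * h⁻¹) * Bl a b' c d hdt := by
    rw [← hsB]
    calc h * s * h⁻¹ * (h * u * h⁻¹) = h * (s * u) * h⁻¹ := by group
      _ = h * u * h⁻¹ * (h * s * h⁻¹) := by rw [hsu]; group
  obtain ⟨t, a', b'', c', d', hdt', huB⟩ := exists_u hdt (Bl_fix hdt hB1 hm hBm) hcu u0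
  have ht : t ≠ 0 := by
    rintro rfl
    rw [Pt_zero, one_mul] at huB
    have u1 : ((h * u * h⁻¹ : AutO F) : V F ≃ₗ[F] V F) e1 = e1 := by rw [huB, Bl_e1]
    apply hno
    have back : ∀ g : AutO F, ((h * g * h⁻¹ : AutO F) : V F ≃ₗ[F] V F) e1 = e1 →
        (g : V F ≃ₗ[F] V F) (((h⁻¹ : AutO F) : V F ≃ₗ[F] V F) e1) = ((h⁻¹ : AutO F) : V F ≃ₗ[F] V F) e1 := by
      intro g hg
      rw [cj] at hg
      have h3 := congrArg ((h⁻¹ : AutO F) : V F ≃ₗ[F] V F) hg
      rwa [inv_ap'] at h3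
    refine ⟨((h⁻¹ : AutO F) : V F ≃ₗ[F] V F) e1, back s s1, ?_, 0, 1, ?_⟩
    · rw [dsc_map]
      simp [dsc, tr, nm, e1]
    · rw [back u u1, zero_smul, one_smul, zero_add]
  have conjz : ∀ g : AutO F, (h * g * h⁻¹) * zz F = zz F * (h * g * h⁻¹) → g * (h⁻¹ * zz F * h) = (h⁻¹ * zz F * h) * g := by
    intro g hg
    calc g * (h⁻¹ * zz F * h) = h⁻¹ * ((h * g * h⁻¹) * zz F) * h := by group
      _ = (h⁻¹ * zz F * h) * g := by rw [hg]; group
  refine ⟨h⁻¹ * zz F * h, ?_, ?_, ?_, ?_, ?_, ?_⟩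
  · have h3 : (h⁻¹ * zz F * h) ^ 2 = h⁻¹ * (zz F) ^ 2 * h := by
      have := conj_pow (i := 2) (a := h⁻¹) (b := zz F)
      rwa [inv_inv] at this
    rw [h3, zz_sq, mul_one, inv_mul_cancel]
  · intro h3
    apply zz_ne (F := F) h2
    calc zz F = h * (h⁻¹ * zz F * h) * h⁻¹ := by group
      _ = 1 := by rw [h3, mul_one, mul_inv_cancel]
  · apply conjz
    rw [hsB, zz_Bl]
  · apply conjz
    rw [huB, mul_assoc, zz_Bl, ← mul_assoc, zz_Pt, mul_assoc]
  · intro t' ht2 ht1 hfix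
    have h3 : h * t' * h⁻¹ = zz F := by
      apply zz_unique h2
      · rw [conj_pow, ht2, mul_one, mul_inv_cancel]
      · intro h4
        apply ht1
        rw [mul_inv_eq_one] at h4
        exact mul_left_cancel (by rw [h4, mul_one])
      · intro v v1 v2 v4 v5
        have h4 : ((h * s * h⁻¹ : AutO F) : V F ≃ₗ[F] V F) v = v := by
          rw [hsB, Bl_apply]
          apply ext8 <;> simp [bF, v1, v2, v4, v5]
        rw [cj] at h4 ⊢
        have h5 := congrArg ((h⁻¹ : AutO F) : V F ≃ₗ[F] V F) h4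
        rw [inv_ap'] at h5
        rw [hfix _ h5, inv_ap]
    rw [← h3]; group
  · intro N hN huN
    let N1 : Subgroup (AutO F) := N.map (MulAut.conj h).toMonoidHom
    have memN1 : ∀ g : AutO F, h * g * h⁻¹ ∈ N1 ↔ g ∈ N := by
      intro g
      constructor
      · rintro ⟨g', hg', h3⟩
        have h4 : h * g' * h⁻¹ = h * g * h⁻¹ := h3
        have h5 : g' = g := mul_left_cancel (mul_right_cancel h4)
        rwa [← h5]
      · intro hg
        exact ⟨g, hg, rfl⟩
    have h3 : zz F ∈ N1 := by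
      refine zz_mem (p := p) hp hp2 hdt ht hdt' ?_ (by rw [← huB]; exact (memN1 u).2 huN)
      intro g hg x hx
      have e1 : x = h * (h⁻¹ * x * h) * h⁻¹ := by group
      have e2 : g = h * (h⁻¹ * g * h) * h⁻¹ := by group
      rw [e1] at hx
      have hx' := (memN1 _).1 hx
      have h4 : (h⁻¹ * g * h) * s = s * (h⁻¹ * g * h) := by
        rw [← hsB] at hg
        calc (h⁻¹ * g * h) * s = h⁻¹ * (g * (h * s * h⁻¹)) * h := by group
          _ = s * (h⁻¹ * g * h) := by rw [hg]; group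
      have h5 := (memN1 _).2 (hN _ h4 _ hx')
      have h6 : h * (h⁻¹ * g * h * (h⁻¹ * x * h) * (h⁻¹ * g * h)⁻¹) * h⁻¹ = g * x * g⁻¹ := by group
      rwa [h6] at h5
    have e1 : zz F = h * (h⁻¹ * zz F * h) * h⁻¹ := by group
    rw [e1] at h3
    exact (memN1 _).1 h3

/-- **(C)** -/
theorem mixed_alg [Finite F] {p : ℕ} [CharP F p] {s u : AutO F} (hs1 : s ≠ 1)
    (hdet : LinearMap.det ((s : V F ≃ₗ[F] V F) : V F →ₗ[F] V F) = 1) {m : ℕ} (hm : ¬ p ∣ m) (hsm : s ^ m = 1)
    (hup : u ^ p = 1) (hsu : s * u = u * s) :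
    (∃ e : V F, (s : V F ≃ₗ[F] V F) e = e ∧ dsc e ≠ 0 ∧ PK e u) ∨
    (p ≠ 2 ∧ ∃ z : AutO F, z ^ 2 = 1 ∧ z ≠ 1 ∧ s * z = z * s ∧ u * z = z * u ∧
      (∀ t : AutO F, t ^ 2 = 1 → t ≠ 1 → (∀ v, (s : V F ≃ₗ[F] V F) v = v → (t : V F ≃ₗ[F] V F) v = v) → t = z) ∧
      ∀ N : Subgroup (AutO F), (∀ c, c * s = s * c → ∀ n ∈ N, c * n * c⁻¹ ∈ N) → u ∈ N → z ∈ N) := by
  have hp : p.Prime := (CharP.char_is_prime_or_zero F p).resolve_right (fun h => CharP.char_ne_zero_of_finite F p h)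
  have hm0 : (m : F) ≠ 0 := fun h => hm ((CharP.cast_eq_zero_iff F p m).1 h)
  by_cases hp2 : p = 2
  · subst hp2
    left
    have hsm' : (s : V F ≃ₗ[F] V F) ^ m = 1 := by rw [← Subgroup.coe_pow, hsm]; rfl
    exact mixed_two s.2 u.2 hm0 hsm' (congrArg Subtype.val hsu)
  · have h2 : (2 : F) ≠ 0 := by
      intro h
      have h3 : ((2 : ℕ) : F) = 0 := by exact_mod_cast h
      rw [CharP.cast_eq_zero_iff F p] at h3
      rcases (Nat.dvd_prime Nat.prime_two).1 h3 with h4 | h4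
      · exact hp.one_lt.ne' h4
      · exact hp2 h4
    by_cases hno : ∃ e : V F, (s : V F ≃ₗ[F] V F) e = e ∧ dsc e ≠ 0 ∧ PK e u
    · exact Or.inl hno
    · exact Or.inr ⟨hp2, mixed_odd hp hp2 h2 hs1 hdet hm0 hsm hup hsu hno⟩

end Cfsg.Agent.H566.G2

private theorem dce_7940d43cc7cd : _root_.True := by
  try have : _root_.True := by simp only [_root_.Cfsg.Agent.H566.G2.dsc.eq_1]
  exact _root_.True.intro
end
end
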